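import Cfsg.Agent.H517.Kgv.Tools
import Cfsg.Agent.H934.OutCl
import Cfsg.Agent.LieClassical.PomegaCard
import Cfsg.Agent.H955.QMinus
import Cfsg.Agent.H203.OrthHeis
import Cfsg.Agent.S0287
import Cfsg.Agent.S0288
import Cfsg.Agent.S0292
import Cfsg.Agent.S0293
import Cfsg.Agent.S0294
import Cfsg.Agent.S0816
import Cfsg.Agent.S0817
import Cfsg.Agent.S0818
import Cfsg.Agent.S2558
import Cfsg.Agent.S2559
import Cfsg.Agent.S2560

set_option autoImplicit false

/-!
# TEAM KGV: the rows of the orthogonal groups (helper517)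
-/

namespace Cfsg.Agent.H517.Kgv.Orth

open Cfsg Cfsg.Agent.H960.KGV Cfsg.Agent.H540.ClassNum Cfsg.Agent.H934.OutB Cfsg.Agent.H934.OutCl
  Cfsg.Agent.H203.OrthHeis

/-! ### arithmetic -/

theorem lin_le {f q : ℕ} (hf : 1 ≤ f) (h : 2 ^ f ≤ q) : f * 2 ≤ q := by
  obtain ⟨k, rfl⟩ : ∃ k, f = k + 1 := ⟨f - 1, by omega⟩
  rw [pow_succ] at h
  have : k < 2 ^ k := Nat.lt_two_pow_self
  omega

theorem sq_le {c d0 d : ℕ} (h0 : c * d0 ^ 2 ≤ 5 ^ (d0 - 1)) (hd3 : 3 ≤ d0) (hd : d0 ≤ d) :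
    c * d ^ 2 ≤ 5 ^ (d - 1) := by
  induction d, hd using Nat.le_induction with
  | base => exact h0
  | succ m hm ih =>
    have e : m + 1 - 1 = (m - 1) + 1 := by omega
    rw [e, pow_succ 5]
    have h1 : (m + 1) ^ 2 ≤ 2 * m ^ 2 := by nlinarith
    have h2 : c * (m + 1) ^ 2 ≤ c * (2 * m ^ 2) := Nat.mul_le_mul_left _ h1
    have h3 : c * (2 * m ^ 2) = 2 * (c * m ^ 2) := by ring
    omega

/-- `q` odd: `2 q ^ (n + 1) ≤ 3 (q - 1) q ^ e` -/
theorem odd_aux {q n e : ℕ} (hq : 3 ≤ q) (he : n ≤ e) : 2 * q ^ (n + 1) ≤ 3 * ((q - 1) * q ^ e) := by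
  have h1 : q ^ n ≤ q ^ e := Nat.pow_le_pow_right (by omega) he
  calc 2 * q ^ (n + 1) = (2 * q) * q ^ n := by ring
    _ ≤ (3 * (q - 1)) * q ^ e := Nat.mul_le_mul (by omega) h1
    _ = _ := by ring

/-- `q ^ (n + 1) ≤ 2 (q - 1) q ^ e` -/
theorem even_aux {q n e : ℕ} (hq : 2 ≤ q) (he : n ≤ e) : q ^ (n + 1) ≤ 2 * ((q - 1) * q ^ e) := by
  have h1 : q ^ n ≤ q ^ e := Nat.pow_le_pow_right (by omega) he
  calc q ^ (n + 1) = q * q ^ n := by ring
    _ ≤ (2 * (q - 1)) * q ^ e := Nat.mul_le_mul (by omega) h1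
    _ = _ := by ring

/-- `q` odd: `2 k o ≤ 5 ^ (d - 1)` -/
theorem odd_gen {q n e k o d a b f d0 : ℕ} (hq : 3 ≤ q) (he : n ≤ e) (hx : (q - 1) * q ^ e < d ^ 2)
    (hf : f * 2 ≤ q) (hk : 10 * k ≤ a * q ^ n) (ho : o ≤ b * f)
    (hd0 : (a * b * 3 + 19) / 20 * d0 ^ 2 ≤ 5 ^ (d0 - 1)) (hd3 : 3 ≤ d0) (hd : d0 ≤ d) :
    2 * (k * o) ≤ 5 ^ (d - 1) := by
  have h1 := odd_aux hq he
  have h2 := sq_le hd0 hd3 hd
  refine le_trans ?_ h2
  have h3 : 20 * (2 * (k * o)) ≤ a * b * 3 * d ^ 2 := by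
    calc 20 * (2 * (k * o)) = 2 * ((10 * k) * (2 * o)) := by ring
      _ ≤ 2 * ((a * q ^ n) * (b * q)) := by
          refine Nat.mul_le_mul_left 2 (Nat.mul_le_mul hk ?_)
          calc 2 * o ≤ 2 * (b * f) := Nat.mul_le_mul_left 2 ho
            _ = b * (f * 2) := by ring
            _ ≤ b * q := Nat.mul_le_mul_left b hf
      _ = a * b * (2 * q ^ (n + 1)) := by ring
      _ ≤ a * b * (3 * ((q - 1) * q ^ e)) := Nat.mul_le_mul_left _ h1
      _ ≤ a * b * (3 * d ^ 2) := Nat.mul_le_mul_left _ (Nat.mul_le_mul_left 3 hx.le)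
      _ = _ := by ring
  have h4 : a * b * 3 ≤ 20 * ((a * b * 3 + 19) / 20) := by omega
  have h5 : a * b * 3 * d ^ 2 ≤ 20 * ((a * b * 3 + 19) / 20) * d ^ 2 := Nat.mul_le_mul_right _ h4
  rw [mul_assoc 20] at h5
  omega

/-- `q` even: `2 k o ≤ 5 ^ (d - 1)` -/
theorem even_gen {q n e k o d a b f d0 : ℕ} (hq : 2 ≤ q) (he : n ≤ e) (hx : (q - 1) * q ^ e < d ^ 2)
    (hf : f * 2 ≤ q) (hk : k ≤ a * q ^ n) (ho : o ≤ b * f)
    (hd0 : (a * b * 2) * d0 ^ 2 ≤ 5 ^ (d0 - 1)) (hd3 : 3 ≤ d0) (hd : d0 ≤ d) :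
    2 * (k * o) ≤ 5 ^ (d - 1) := by
  have h1 := even_aux hq he
  have h2 := sq_le hd0 hd3 hd
  refine le_trans ?_ h2
  calc 2 * (k * o) = k * (2 * o) := by ring
    _ ≤ (a * q ^ n) * (b * q) := by
        refine Nat.mul_le_mul hk ?_
        calc 2 * o ≤ 2 * (b * f) := Nat.mul_le_mul_left 2 ho
          _ = b * (f * 2) := by ring
          _ ≤ b * q := Nat.mul_le_mul_left b hf
    _ = a * b * (q ^ (n + 1)) := by ring
    _ ≤ a * b * (2 * ((q - 1) * q ^ e)) := Nat.mul_le_mul_left _ h1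
    _ ≤ a * b * (2 * d ^ 2) := Nat.mul_le_mul_left _ (Nat.mul_le_mul_left 2 hx.le)
    _ = _ := by ring

/-- the order is divisible by 6 -/
theorem six_dvd {g X q A : ℕ} (hq : 2 ≤ q) (h : g * X = A) (hg4 : g ∣ 4) (hg : Even q → g = 1)
    (hA : q * (q ^ 2 - 1) ∣ A) : 6 ∣ X := by
  have hg0 : 0 < g := by
    rcases Nat.eq_zero_or_pos g with h0 | h0
    · subst h0; norm_num at hg4
    · exact h0
  rw [← h] at hA
  refine Nat.dvd_of_mul_dvd_mul_left hg0 (dvd_trans ?_ hA)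
  obtain ⟨t, rfl⟩ : ∃ t, q = t + 1 := ⟨q - 1, by omega⟩
  have e1 : (t + 1) ^ 2 - 1 = t * (t + 2) := by
    have : (t + 1) ^ 2 = t * (t + 2) + 1 := by ring
    omega
  rw [e1]
  have h7 : 6 ∣ (t + 1) * (t * (t + 2)) := by
    have h5 : ∀ t : ZMod 6, (t + 1) * (t * (t + 2)) = 0 := by decide
    have h6 := h5 t
    rw [← ZMod.natCast_eq_zero_iff]
    push_cast
    exact h6
  rcases Nat.even_or_odd (t + 1) with he | ho
  · rw [hg he, one_mul]
    exact h7
  · obtain ⟨j, hj⟩ := ho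
    have ht : t = 2 * j := by omega
    subst ht
    have h8 : 24 ∣ (2 * j + 1) * (2 * j * (2 * j + 2)) := by
      have h5 : ∀ j : ZMod 24, (2 * j + 1) * (2 * j * (2 * j + 2)) = 0 := by decide
      have h6 := h5 j
      rw [← ZMod.natCast_eq_zero_iff]
      push_cast
      exact h6
    exact dvd_trans (by
      calc g * 6 ∣ 4 * 6 := Nat.mul_dvd_mul_right hg4 6
        _ = 24 := by norm_num) h8

theorem dvd_A {q a b m : ℕ} (ha : a ≠ 0) (hm : 1 ≤ m) :
    q * (q ^ 2 - 1) ∣ q ^ a * b * ∏ i ∈ Finset.range m, (q ^ (2 * (i + 1)) - 1) := by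
  rw [mul_assoc]
  refine mul_dvd_mul (dvd_pow_self q ha) (dvd_mul_of_dvd_right ?_ _)
  have := Finset.dvd_prod_of_mem (fun i => q ^ (2 * (i + 1)) - 1) (Finset.mem_range.2 hm)
  simpa using this

/-! ### class numbers -/

/-- `k(PΩ) ≤ 2 g k(O)` if `g |PΩ| = X`, `|O| = 2 X`. -/
theorem k_le {ι : Type} [Fintype ι] [DecidableEq ι] {F : Type*} [Field F] [Finite F]
    (Q : (ι → F) → F) {g X : ℕ} (h1 : Nat.card (Cfsg.isometryGroup F Q) = 2 * X)
    (h2 : g * Nat.card (Cfsg.POmega F Q) = X) :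
    Nat.card (ConjClasses (Cfsg.POmega F Q)) ≤
      2 * g * Nat.card (ConjClasses (Cfsg.isometryGroup F Q)) := by
  have h3 := LieClassical.PomegaCard.card_isometryGroup_eq (F := F) Q
  have hP : 0 < Nat.card (Cfsg.POmega F Q) := Nat.card_pos
  have hZ : 0 < Nat.card (Subgroup.center (Cfsg.Omega F Q)) := Nat.card_pos
  have h4 : (Cfsg.Omega F Q).index ≤ 2 * g := by
    have h5 : (2 * g) * Nat.card (Cfsg.POmega F Q) =
        ((Cfsg.Omega F Q).index * Nat.card (Subgroup.center (Cfsg.Omega F Q))) *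
          Nat.card (Cfsg.POmega F Q) := by
      rw [mul_assoc, h2, ← h1, h3]
      ring
    have h6 := Nat.eq_of_mul_eq_mul_right hP h5
    rw [h6]
    exact Nat.le_mul_of_pos_right _ hZ
  calc Nat.card (ConjClasses (Cfsg.POmega F Q)) ≤ Nat.card (ConjClasses (Cfsg.Omega F Q)) :=
        card_conjClasses_le_of_surjective (QuotientGroup.mk' _) (QuotientGroup.mk'_surjective _)
    _ ≤ (Cfsg.Omega F Q).index * Nat.card (ConjClasses (Cfsg.isometryGroup F Q)) := le_index_mul _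
    _ ≤ _ := Nat.mul_le_mul_right _ h4

theorem gcd_even {p f m : ℕ} (hp2 : p = 2) (hf : 1 ≤ f) (hm : 1 ≤ m) :
    Nat.gcd 4 ((p ^ f) ^ m - 1) = 1 ∧ Nat.gcd 4 ((p ^ f) ^ m + 1) = 1 := by
  obtain ⟨k, hk⟩ : ∃ k, (p ^ f) ^ m = 2 * k := by
    rw [hp2, ← pow_mul]
    obtain ⟨j, hj⟩ : ∃ j, f * m = j + 1 := ⟨f * m - 1, by
      have : 1 ≤ f * m := Nat.mul_pos hf hm
      omega⟩
    exact ⟨2 ^ j, by rw [hj, pow_succ, mul_comm]⟩
  have hk0 : 1 ≤ k := by
    have : 0 < (p ^ f) ^ m := by rw [hp2]; positivity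
    omega
  rw [hk]
  have e : (4 : ℕ) = 2 ^ 2 := by norm_num
  rw [e]
  constructor
  · apply Nat.Coprime.pow_left
    rw [Nat.coprime_two_left]
    exact ⟨k - 1, by omega⟩
  · apply Nat.Coprime.pow_left
    rw [Nat.coprime_two_left]
    exact ⟨k, rfl⟩

variable {F : Type} [Field F] [Fintype F]

/-! ### odd dimension -/

theorem odd {m : ℕ} (hm : 3 ≤ m) (hodd : Odd (Fintype.card F))
    (hs : IsSimpleGroup (Cfsg.POmega F (Cfsg.quadFormOdd m F)))
    (hna : ¬ IsMulCommutative (Cfsg.POmega F (Cfsg.quadFormOdd m F))) :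
    Row (Cfsg.POmega F (Cfsg.quadFormOdd m F)) := by
  obtain ⟨p, f, hp, hf, hF⟩ := exists_pf F
  have := Fact.mk hp
  have : Finite (Cfsg.isometryGroup F (Cfsg.quadFormOdd m F)) := inferInstance
  have : Finite (Cfsg.POmega F (Cfsg.quadFormOdd m F)) := inferInstance
  have hpo : Odd p := by
    rw [hF] at hodd
    exact Nat.Odd.of_mul_left (n := p ^ (f - 1)) (by rwa [← pow_succ', Nat.sub_add_cancel hf])
  have hp3 : 3 ≤ p := by
    have := hp.two_le
    obtain ⟨k, hk⟩ := hpo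
    omega
  have ho := card_out_of_aut hna (Cfsg.Agent.S0816.result (F := F) p f hf hF hpo m hm)
  have hq3 : 3 ≤ Fintype.card F := by
    rw [hF]; exact hp3.trans (Nat.le_self_pow (by omega) _)
  have hf2 := lin_le hf (q := Fintype.card F) (by rw [hF]; exact Nat.pow_le_pow_left (by omega) f)
  have h20 : (2 : F) ≠ 0 := by
    intro h
    have h2 : ringChar F ∣ 2 := (ringChar.spec F 2).1 (by exact_mod_cast h)
    have h3 : ringChar F = 2 := by
      rcases (Nat.dvd_prime Nat.prime_two).1 h2 with h4 | h4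
      · exfalso
        obtain ⟨n, hr, -⟩ := FiniteField.card F (ringChar F)
        rw [h4] at hr
        exact Nat.not_prime_one hr
      · exact h4
    obtain ⟨n, hr, hn⟩ := FiniteField.card F (ringChar F)
    rw [h3] at hn
    rw [hn] at hodd
    have : Even (2 ^ (n : ℕ)) := (Nat.even_pow.2 ⟨_root_.even_two, n.pos.ne'⟩)
    exact (Nat.not_even_iff_odd.2 hodd) this
  have hrC : ((p : ℕ) : ℂ) ≠ 0 := by exact_mod_cast hp.ne_zero
  have hbd := bd_pomega_odd_heis (F := ℂ) (K := F) hp hrC hF h20 hm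
  have hk0 : Nat.card (ConjClasses (Cfsg.POmega F (Cfsg.quadFormOdd m F))) ≤
      Nat.card (ConjClasses (Cfsg.Omega F (Cfsg.quadFormOdd m F))) :=
    card_conjClasses_le_of_surjective (QuotientGroup.mk' _) (QuotientGroup.mk'_surjective _)
  have hk := (Nat.mul_le_mul_left 10 hk0).trans (S2560.result (F := F) hodd m (by omega)).2
  have hcP := S0292.result (F := F) rfl hodd m hm
  intro p' g d hsit
  have hx := lt_of_bd hna hbd hsit
  have h6 : 6 ∣ Nat.card (Cfsg.POmega F (Cfsg.quadFormOdd m F)) := by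
    refine six_dvd (q := Fintype.card F) (by omega) hcP (by norm_num)
      (fun he => absurd hodd (Nat.not_odd_iff_even.2 he)) ?_
    have := dvd_A (q := Fintype.card F) (a := m ^ 2) (b := 1) (m := m) (by positivity) (by omega)
    rwa [mul_one] at this
  have hp5 : 5 ≤ p' := H528.KGV.five_le (dvd_trans (by norm_num) h6) (dvd_trans (by norm_num) h6) hsit.prime
    hsit.coprime
  have hd5 : 5 ≤ d := by
    by_contra hcon
    have h1 : d ^ 2 ≤ 4 ^ 2 := Nat.pow_le_pow_left (by omega) 2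
    have h2 : 3 ^ 3 ≤ Fintype.card F ^ (2 * m - 3) :=
      (Nat.pow_le_pow_left hq3 3).trans (Nat.pow_le_pow_right (by omega) (by omega))
    have h3 : 2 * 3 ^ 3 ≤ (Fintype.card F - 1) * Fintype.card F ^ (2 * m - 3) := Nat.mul_le_mul (by omega) h2
    omega
  exact key (by omega : 2 ≤ 5) hp5 hsit.f_pos (by omega)
    (odd_gen (n := m) (e := 2 * m - 3) (a := 73) (b := 2) (d0 := 5) hq3 (by omega) hx hf2 hk ho.le (by norm_num) (by norm_num) hd5)

/-! ### even dimension: the numerical part -/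

theorem aux_odd {n q f X k o : ℕ} (hn : 4 ≤ n) (hq3 : 3 ≤ q) (hf2 : f * 2 ≤ q) (ho : o ≤ 24 * f)
    (hk : k ≤ 76 * q ^ n) (h6 : 6 ∣ X)
    {p' g d : ℕ} (hpp : p'.Prime) (hg : 1 ≤ g) (hpN : ¬ p' ∣ X) (hx : (q - 1) * q ^ (2 * n - 4) < d ^ 2) :
    2 * g * (p' ^ g - 1) * (k * o) ≤ (p' ^ g) ^ d := by
  have hp5 : 5 ≤ p' := H528.KGV.five_le (dvd_trans (by norm_num) h6) (dvd_trans (by norm_num) h6) hpp hpN
  have hd9 : 9 ≤ d := by
    by_contra hcon
    have h1 : d ^ 2 ≤ 8 ^ 2 := Nat.pow_le_pow_left (by omega) 2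
    have h2 : 3 ^ 4 ≤ q ^ (2 * n - 4) :=
      (Nat.pow_le_pow_left hq3 4).trans (Nat.pow_le_pow_right (by omega) (by omega))
    have h3 : 2 * 3 ^ 4 ≤ (q - 1) * q ^ (2 * n - 4) := Nat.mul_le_mul (by omega) h2
    omega
  exact key (by omega : 2 ≤ 5) hp5 hg (by omega)
    (odd_gen (n := n) (e := 2 * n - 4) (a := 760) (b := 24) (d0 := 9) hq3 (by omega) hx hf2 (by omega) ho (by norm_num) (by norm_num) hd9)

theorem aux_even {n q f X k o : ℕ} (hn : 4 ≤ n) (hq : Even q) (hq2 : 2 ≤ q) (hf : 1 ≤ f) (hf2 : f * 2 ≤ q)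
    (ho : o ≤ 6 * f) (hk : k ≤ 30 * q ^ n) (h6 : 6 ∣ X) (hX : n = 4 → q = 2 → 5 ∣ X ∧ 7 ∣ X)
    {p' g d : ℕ} (hpp : p'.Prime) (hg : 1 ≤ g) (hpN : ¬ p' ∣ X) (hx : (q - 1) * q ^ (2 * n - 4) < d ^ 2) :
    2 * g * (p' ^ g - 1) * (k * o) ≤ (p' ^ g) ^ d := by
  have hp5 : 5 ≤ p' := H528.KGV.five_le (dvd_trans (by norm_num) h6) (dvd_trans (by norm_num) h6) hpp hpN
  rcases Nat.lt_or_ge d 8 with hd8 | hd8
  · have h1 : d ^ 2 ≤ 7 ^ 2 := Nat.pow_le_pow_left (by omega) 2
    have hq' : q = 2 := by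
      by_contra hne
      obtain ⟨j, hj⟩ := hq
      have h2 : 4 ^ 4 ≤ q ^ (2 * n - 4) :=
        (Nat.pow_le_pow_left (by omega) 4).trans (Nat.pow_le_pow_right (by omega) (by omega))
      have h3 : 3 * 4 ^ 4 ≤ (q - 1) * q ^ (2 * n - 4) := Nat.mul_le_mul (by omega) h2
      omega
    subst hq'
    have hn4 : n = 4 := by
      by_contra hne
      have h2 : 2 ^ 6 ≤ 2 ^ (2 * n - 4) := Nat.pow_le_pow_right (by omega) (by omega)
      omega
    subst hn4
    obtain ⟨h5X, h7X⟩ := hX rfl rfl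
    have hp11 : 11 ≤ p' := by
      by_contra hcon
      have hp11 : p' < 11 := by omega
      clear hcon
      interval_cases p'
      · exact hpN h5X
      · norm_num at hpp
      · exact hpN h7X
      · norm_num at hpp
      · norm_num at hpp
      · norm_num at hpp
    have hd5 : 5 ≤ d := by
      by_contra hcon
      have : d ^ 2 ≤ 4 ^ 2 := Nat.pow_le_pow_left (by omega) 2
      omega
    have hf1 : f = 1 := by omega
    subst hf1
    have hKo : k * o ≤ 480 * 6 := Nat.mul_le_mul (by omega) ho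
    exact key (by omega : 2 ≤ 11) hp11 hg (by omega) ((Nat.mul_le_mul_left 2 hKo).trans
      (le_trans (by norm_num : 2 * (480 * 6) ≤ 11 ^ (5 - 1)) (Nat.pow_le_pow_right (by norm_num) (by omega))))
  · exact key (by omega : 2 ≤ 5) hp5 hg (by omega)
      (even_gen (n := n) (e := 2 * n - 4) (a := 30) (b := 6) (d0 := 8) hq2 (by omega) hx hf2 hk ho (by norm_num) (by norm_num) hd8)

/-! ### plus type -/

theorem plus {m : ℕ} (hm : 4 ≤ m) (hs : IsSimpleGroup (Cfsg.POmega F (Cfsg.quadFormPlus m F)))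
    (hna : ¬ IsMulCommutative (Cfsg.POmega F (Cfsg.quadFormPlus m F))) :
    Row (Cfsg.POmega F (Cfsg.quadFormPlus m F)) := by
  obtain ⟨p, f, hp, hf, hF⟩ := exists_pf F
  have := Fact.mk hp
  have : Finite (Cfsg.isometryGroup F (Cfsg.quadFormPlus m F)) := inferInstance
  have : Finite (Cfsg.POmega F (Cfsg.quadFormPlus m F)) := inferInstance
  have ho := card_out_of_aut hna (Cfsg.Agent.S0817.result (F := F) p f hf hF m hm)
  have hq2 : 2 ≤ Fintype.card F := Fintype.one_lt_card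
  have hf2 := lin_le hf (q := Fintype.card F) (by rw [hF]; exact Nat.pow_le_pow_left hp.two_le f)
  have hcO := S0287.result (F := F) rfl m (by omega)
  have hcP := S0293.result (F := F) rfl m hm
  rw [mul_assoc, mul_assoc, ← mul_assoc (Fintype.card F ^ (m * (m - 1)))] at hcO
  have hk := k_le (Cfsg.quadFormPlus m F) hcO hcP
  have hrC : ((p : ℕ) : ℂ) ≠ 0 := by exact_mod_cast hp.ne_zero
  have hbd := bd_pomega_plus_heis (F := ℂ) (K := F) hp hrC hF hm
  have hm0 : m * (m - 1) ≠ 0 := Nat.mul_ne_zero (by omega) (by omega)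
  have hg1 : Even (Fintype.card F) → Nat.gcd 4 (Fintype.card F ^ m - 1) = 1 := by
    intro he
    have hp2 : p = 2 := by
      rcases hp.eq_two_or_odd' with hp2 | hpo
      · exact hp2
      · exact absurd he (by rw [hF]; exact Nat.not_even_iff_odd.2 hpo.pow)
    rw [hF]; exact (gcd_even hp2 hf (by omega)).1
  have h6 : 6 ∣ Nat.card (Cfsg.POmega F (Cfsg.quadFormPlus m F)) :=
    six_dvd hq2 hcP (Nat.gcd_dvd_left _ _) hg1 (dvd_A hm0 (by omega))
  intro p' g d hsit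
  have hx := lt_of_bd hna hbd hsit
  rcases hp.eq_two_or_odd' with hp2 | hpo
  · have heven : Even (Fintype.card F) := by
      rw [hF, hp2]
      exact (Nat.even_pow.2 ⟨_root_.even_two, by omega⟩)
    have hg := hg1 heven
    rw [hg] at hk
    have hk1 : Nat.card (ConjClasses (Cfsg.isometryGroup F (Cfsg.quadFormPlus m F))) ≤
        15 * Fintype.card F ^ m := by
      obtain ⟨a, b, hab⟩ := H955.exists_aniso_coeff F
      exact ((S2559.result (F := F) heven m (by omega) a b hab).1).2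
    rw [if_pos hp2] at ho
    have ho6 : Nat.card (Cfsg.Out (Cfsg.POmega F (Cfsg.quadFormPlus m F))) ≤ 6 * f := by
      rw [ho]
      apply Nat.mul_le_mul_right
      split_ifs <;> norm_num
    refine aux_even hm heven hq2 hf hf2 ho6 (by omega) h6 ?_ hsit.prime hsit.f_pos hsit.coprime hx
    intro hm4 hq
    subst hm4
    have hc : Nat.card (Cfsg.POmega F (Cfsg.quadFormPlus 4 F)) = 174182400 := by
      rw [hq] at hcP
      simp only [Finset.prod_range_succ, Finset.prod_range_zero] at hcP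
      norm_num at hcP
      exact hcP
    rw [hc]
    norm_num
  · have hp3 : 3 ≤ p := by
      have h2 := hp.two_le
      obtain ⟨k, hk⟩ := hpo
      omega
    have hq3 : 3 ≤ Fintype.card F := by
      rw [hF]; exact hp3.trans (Nat.le_self_pow (by omega) _)
    have hodd : Odd (Fintype.card F) := by rw [hF]; exact hpo.pow
    have hg : Nat.gcd 4 (Fintype.card F ^ m - 1) ≤ 4 := Nat.gcd_le_left _ (by norm_num)
    have hk1 : 2 * Nat.card (ConjClasses (Cfsg.isometryGroup F (Cfsg.quadFormPlus m F))) ≤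
        19 * Fintype.card F ^ m := by
      obtain ⟨a, b, hab⟩ := H955.exists_aniso_coeff F
      exact ((S2558.result (F := F) hodd m (by omega) a b hab).1).2
    have hk2 : Nat.card (ConjClasses (Cfsg.POmega F (Cfsg.quadFormPlus m F))) ≤
        76 * Fintype.card F ^ m := by
      refine hk.trans ((Nat.mul_le_mul_right _ (Nat.mul_le_mul_left 2 hg)).trans ?_)
      omega
    rw [if_neg (show ¬ p = 2 by omega)] at ho
    have ho24 : Nat.card (Cfsg.Out (Cfsg.POmega F (Cfsg.quadFormPlus m F))) ≤ 24 * f := by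
      rw [ho]
      apply Nat.mul_le_mul_right
      split_ifs <;> norm_num
    exact aux_odd hm hq3 hf2 ho24 hk2 h6 hsit.prime hsit.f_pos hsit.coprime hx

/-! ### minus type -/

theorem minus {m : ℕ} (hm : 4 ≤ m) (a b : F)
    (hab : ∀ z₁ z₂ : F, z₁ ^ 2 + a * z₁ * z₂ + b * z₂ ^ 2 = 0 → z₁ = 0 ∧ z₂ = 0)
    (hs : IsSimpleGroup (Cfsg.POmega F (Cfsg.quadFormMinus (m - 1) F a b)))
    (hna : ¬ IsMulCommutative (Cfsg.POmega F (Cfsg.quadFormMinus (m - 1) F a b))) :
    Row (Cfsg.POmega F (Cfsg.quadFormMinus (m - 1) F a b)) := by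
  obtain ⟨p, f, hp, hf, hF⟩ := exists_pf F
  have := Fact.mk hp
  have : Finite (Cfsg.isometryGroup F (Cfsg.quadFormMinus (m - 1) F a b)) := inferInstance
  have : Finite (Cfsg.POmega F (Cfsg.quadFormMinus (m - 1) F a b)) := inferInstance
  have ho := card_out_of_aut hna (Cfsg.Agent.S0818.result (F := F) p f hf hF m hm a b hab)
  have hq2 : 2 ≤ Fintype.card F := Fintype.one_lt_card
  have hf2 := lin_le hf (q := Fintype.card F) (by rw [hF]; exact Nat.pow_le_pow_left hp.two_le f)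
  have hcO := S0288.result (F := F) rfl m (by omega) a b hab
  have hcP := S0294.result (F := F) rfl m hm a b hab
  rw [mul_assoc, mul_assoc, ← mul_assoc (Fintype.card F ^ (m * (m - 1)))] at hcO
  have hk := k_le (Cfsg.quadFormMinus (m - 1) F a b) hcO hcP
  have hrC : ((p : ℕ) : ℂ) ≠ 0 := by exact_mod_cast hp.ne_zero
  have hbd := bd_pomega_minus_heis (F := ℂ) (K := F) hp hrC hF hm hab
  have hm0 : m * (m - 1) ≠ 0 := Nat.mul_ne_zero (by omega) (by omega)
  have hg1 : Even (Fintype.card F) → Nat.gcd 4 (Fintype.card F ^ m + 1) = 1 := by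
    intro he
    have hp2 : p = 2 := by
      rcases hp.eq_two_or_odd' with hp2 | hpo
      · exact hp2
      · exact absurd he (by rw [hF]; exact Nat.not_even_iff_odd.2 hpo.pow)
    rw [hF]; exact (gcd_even hp2 hf (by omega)).2
  have h6 : 6 ∣ Nat.card (Cfsg.POmega F (Cfsg.quadFormMinus (m - 1) F a b)) :=
    six_dvd hq2 hcP (Nat.gcd_dvd_left _ _) hg1 (dvd_A hm0 (by omega))
  intro p' g d hsit
  have hx := lt_of_bd hna hbd hsit
  rcases hp.eq_two_or_odd' with hp2 | hpo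
  · have heven : Even (Fintype.card F) := by
      rw [hF, hp2]
      exact (Nat.even_pow.2 ⟨_root_.even_two, by omega⟩)
    have hg := hg1 heven
    rw [hg] at hk
    have hk1 := ((S2559.result (F := F) heven m (by omega) a b hab).2).2
    rw [if_pos hp2] at ho
    have ho6 : Nat.card (Cfsg.Out (Cfsg.POmega F (Cfsg.quadFormMinus (m - 1) F a b))) ≤ 6 * f := by
      rw [ho]
      exact Nat.mul_le_mul_right _ (by norm_num)
    refine aux_even hm heven hq2 hf hf2 ho6 (by omega) h6 ?_ hsit.prime hsit.f_pos hsit.coprime hx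
    intro hm4 hq
    subst hm4
    have hc : Nat.card (Cfsg.POmega F (Cfsg.quadFormMinus (4 - 1) F a b)) = 197406720 := by
      rw [hq] at hcP
      simp only [Finset.prod_range_succ, Finset.prod_range_zero] at hcP
      norm_num at hcP
      exact hcP
    rw [hc]
    norm_num
  · have hp3 : 3 ≤ p := by
      have h2 := hp.two_le
      obtain ⟨k, hk⟩ := hpo
      omega
    have hq3 : 3 ≤ Fintype.card F := by
      rw [hF]; exact hp3.trans (Nat.le_self_pow (by omega) _)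
    have hodd : Odd (Fintype.card F) := by rw [hF]; exact hpo.pow
    have hg : Nat.gcd 4 (Fintype.card F ^ m + 1) ≤ 4 := Nat.gcd_le_left _ (by norm_num)
    have hk1 := ((S2558.result (F := F) hodd m (by omega) a b hab).2).2
    have hk2 : Nat.card (ConjClasses (Cfsg.POmega F (Cfsg.quadFormMinus (m - 1) F a b))) ≤
        76 * Fintype.card F ^ m := by
      refine hk.trans ((Nat.mul_le_mul_right _ (Nat.mul_le_mul_left 2 hg)).trans ?_)
      omega
    rw [if_neg (show ¬ p = 2 by omega)] at ho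
    have ho24 : Nat.card (Cfsg.Out (Cfsg.POmega F (Cfsg.quadFormMinus (m - 1) F a b))) ≤ 24 * f := by
      rw [ho]
      apply Nat.mul_le_mul_right
      split_ifs <;> norm_num
    exact aux_odd hm hq3 hf2 ho24 hk2 h6 hsit.prime hsit.f_pos hsit.coprime hx

theorem transfer {T X : Type*} [Group T] [Group X] (e : T ≃* X) (hT : ¬ IsMulCommutative T) :
    ¬ IsMulCommutative X := by
  intro h
  apply hT
  refine ⟨⟨fun a b => ?_⟩⟩
  apply e.injective
  rw [map_mul, map_mul]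
  exact h.is_comm.comm _ _

theorem _root_.Cfsg.Agent.H517.Kgv.rowOdd : RowOf (fun T _ => IsPOmegaOdd T) := by
  rintro T _ _ _ hT ⟨F, _, _, m, hm, hodd, ⟨e⟩⟩
  have hs : IsSimpleGroup (Cfsg.POmega F (Cfsg.quadFormOdd m F)) :=
    (MulEquiv.isSimpleGroup_congr e).1 inferInstance
  exact row_congr e (odd hm hodd hs (transfer e hT))

theorem _root_.Cfsg.Agent.H517.Kgv.rowPlus : RowOf (fun T _ => IsPOmegaPlus T) := by
  rintro T _ _ _ hT ⟨F, _, _, m, hm, ⟨e⟩⟩
  have hs : IsSimpleGroup (Cfsg.POmega F (Cfsg.quadFormPlus m F)) :=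
    (MulEquiv.isSimpleGroup_congr e).1 inferInstance
  exact row_congr e (plus hm hs (transfer e hT))

theorem _root_.Cfsg.Agent.H517.Kgv.rowMinus : RowOf (fun T _ => IsPOmegaMinus T) := by
  rintro T _ _ _ hT ⟨F, _, _, m, a, b, hm, hab, ⟨e⟩⟩
  have hs : IsSimpleGroup (Cfsg.POmega F (Cfsg.quadFormMinus (m - 1) F a b)) :=
    (MulEquiv.isSimpleGroup_congr e).1 inferInstance
  exact row_congr e (minus hm a b hab hs (transfer e hT))

end Cfsg.Agent.H517.Kgv.Orth
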